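import Mathlib.RingTheory.Ideal.AssociatedPrime.Finiteness
import Mathlib.RingTheory.Regular.RegularSequence
import Mathlib.RingTheory.Flat.FaithfullyFlat.Basic
import Mathlib.RingTheory.Localization.AtPrime.Basic
import Mathlib.RingTheory.Flat.Localization
import Mathlib.LinearAlgebra.TensorProduct.Quotient
import Groth.Agent.Ega4B.Zariski

/-!
# Descent of locally principal ideals along a family of flat algebras (commutative algebra)

`A` a Noetherian ring, `B i` finitely many flat `A`-algebras, `J i ≤ B i` an ideal generated by a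
nonzerodivisor.  If, at every prime `p` of `A` whose local ring has depth at most one, the ideals
`J i` come from one ideal of `A` (after localization at `p`), then the ideal `⨅ j, J j ∩ A` generates `J i` for all `i`.
-/

set_option autoImplicit false

universe u v w

namespace Groth.Agent.Ega4late.H533.DescAlg

open IsLocalRing

/-- Two elements of the maximal ideal never form a (weakly) regular sequence: elementary form of depth `≤ 1`. -/
def DepthLeOne (R : Type*) [CommRing R] [IsLocalRing R] : Prop :=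
  ∀ x ∈ maximalIdeal R, ∀ y ∈ maximalIdeal R, x ∈ nonZeroDivisors R →
    ∃ z : R, y * z ∈ Ideal.span {x} ∧ z ∉ Ideal.span {x}

open TensorProduct in
/-- Flatness, elementwise: if `x` is a nonzerodivisor modulo `I` in `A`, it is so in `B` modulo `I B`. -/
theorem mem_map_of_mul_mem {A : Type u} {B : Type v} [CommRing A] [CommRing B] [Algebra A B]
    [Module.Flat A B] (I : Ideal A) (x : A) (hx : ∀ a : A, x * a ∈ I → a ∈ I) (b : B)
    (hb : algebraMap A B x * b ∈ I.map (algebraMap A B)) : b ∈ I.map (algebraMap A B) := by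
  let f : (A ⧸ I) →ₗ[A] (A ⧸ I) := x • LinearMap.id
  have hf : Function.Injective f := by
    rw [← LinearMap.ker_eq_bot, LinearMap.ker_eq_bot']
    intro q hq
    obtain ⟨a, rfl⟩ := Ideal.Quotient.mk_surjective q
    have h1 : Ideal.Quotient.mk I (x * a) = 0 := by
      rw [map_mul]; exact hq
    rw [Ideal.Quotient.eq_zero_iff_mem] at h1 ⊢
    exact hx a h1
  have hinj : Function.Injective (f.lTensor B) := Module.Flat.lTensor_preserves_injective_linearMap f hf
  have htop : (I • ⊤ : Submodule A B) = (I.map (algebraMap A B)).restrictScalars A :=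
    Ideal.smul_top_eq_map I
  have key : ∀ c : B, c ∈ I.map (algebraMap A B) ↔ c ⊗ₜ[A] (1 : A ⧸ I) = 0 := by
    intro c
    rw [← (TensorProduct.tensorQuotEquivQuotSMul B I).map_eq_zero_iff]
    have : (TensorProduct.tensorQuotEquivQuotSMul B I) (c ⊗ₜ[A] (1 : A ⧸ I)) =
        Submodule.Quotient.mk c := by
      have h2 := TensorProduct.tensorQuotEquivQuotSMul_tmul_mk (M := B) I c 1
      rw [one_smul] at h2
      exact h2
    rw [this, Submodule.Quotient.mk_eq_zero, htop]
    rfl
  rw [key]
  apply hinj
  rw [map_zero, LinearMap.lTensor_tmul]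
  have : f 1 = x • (1 : A ⧸ I) := rfl
  rw [this, tmul_smul, smul_tmul', Algebra.smul_def, ← key]
  exact hb

/-- A finitely generated ideal whose elements are all moved into `K` by elements outside the prime `p` is moved
into `K` by a single element outside `p`. -/
theorem exists_uniform {A : Type u} [CommRing A] (p : Ideal A) [hp : p.IsPrime] (I K : Ideal A) (hI : I.FG)
    (h : ∀ a ∈ I, ∃ s ∉ p, s * a ∈ K) : ∃ s ∉ p, ∀ a ∈ I, s * a ∈ K := by
  obtain ⟨t, ht⟩ := hI
  have h' : ∀ a ∈ t, ∃ s ∉ p, s * a ∈ K := fun a ha => h a (ht ▸ Ideal.subset_span ha)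
  choose! s hs hsK using h'
  classical
  refine ⟨∏ a ∈ t, s a, ?_, ?_⟩
  · rw [hp.prod_mem_iff]
    push Not
    exact hs
  · intro a ha
    rw [← ht] at ha
    induction ha using Submodule.span_induction with
    | mem x hx =>
      rw [← Finset.prod_erase_mul _ _ hx, mul_assoc]
      exact K.mul_mem_left _ (hsK x hx)
    | zero => simp
    | add x y _ _ hx hy => rw [mul_add]; exact K.add_mem hx hy
    | smul c x _ hx =>
      rw [smul_eq_mul, mul_left_comm]
      exact K.mul_mem_left _ hx

/-- Extension to an algebra of `exists_uniform`. -/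
theorem mul_mem_map {A : Type u} {B : Type v} [CommRing A] [CommRing B] [Algebra A B] (I K : Ideal A)
    (s : A) (h : ∀ a ∈ I, s * a ∈ K) (b : B) (hb : b ∈ I.map (algebraMap A B)) :
    algebraMap A B s * b ∈ K.map (algebraMap A B) := by
  induction hb using Submodule.span_induction with
  | mem x hx =>
    obtain ⟨a, ha, rfl⟩ := hx
    rw [← map_mul]
    exact Ideal.mem_map_of_mem _ (h a ha)
  | zero => simp
  | add x y _ _ hx hy => rw [mul_add]; exact Ideal.add_mem _ hx hy
  | smul c x _ hx =>
    rw [smul_eq_mul, mul_left_comm]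
    exact Ideal.mul_mem_left _ _ hx

/-- `A → B` flat, `A` Noetherian, `g` a nonzerodivisor of `B`: if a prime `p` of `A` is the annihilator in `A` of a
class in `B / g B`, then the local ring `A_p` has depth at most one. -/
theorem depthLeOne_of_colon {A : Type u} {B : Type v} [CommRing A] [IsNoetherianRing A] [CommRing B]
    [Algebra A B] [Module.Flat A B] (p : Ideal A) [hp : p.IsPrime] (Ap : Type w) [CommRing Ap] [Algebra A Ap]
    [IsLocalization.AtPrime Ap p] [IsLocalRing Ap] (g : B) (hg : g ∈ nonZeroDivisors B) (b : B)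
    (hb : ∀ x : A, x ∈ p ↔ algebraMap A B x * b ∈ Ideal.span {g}) : DepthLeOne Ap := by
  intro x hx y hy hx0
  by_contra hcon
  push Not at hcon
  obtain ⟨⟨x', s⟩, hxs⟩ := IsLocalization.surj p.primeCompl x
  obtain ⟨⟨y', t⟩, hyt⟩ := IsLocalization.surj p.primeCompl y
  simp only at hxs hyt
  have hus := IsLocalization.map_units Ap s
  have hut := IsLocalization.map_units Ap t
  have hx'p : x' ∈ p := by
    rw [← IsLocalization.AtPrime.to_map_mem_maximal_iff Ap p, ← hxs]
    exact Ideal.mul_mem_right _ _ hx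
  have hy'p : y' ∈ p := by
    rw [← IsLocalization.AtPrime.to_map_mem_maximal_iff Ap p, ← hyt]
    exact Ideal.mul_mem_right _ _ hy
  have hspan : Ideal.span {x} = Ideal.span {algebraMap A Ap x'} := by
    rw [← hxs]
    exact (Ideal.span_singleton_mul_right_unit hus x).symm
  -- `K = x' A_p ∩ A`
  let K : Ideal A := (Ideal.span {algebraMap A Ap x'}).comap (algebraMap A Ap)
  have hK : ∀ a : A, y' * a ∈ K → a ∈ K := by
    intro a ha
    simp only [K, Ideal.mem_comap] at ha ⊢
    rw [map_mul, ← hyt, ← hspan] at ha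
    rw [← hspan]
    apply hcon
    rw [mul_right_comm] at ha
    obtain ⟨v, hv⟩ := hut
    rw [← hv] at ha
    simpa using ((Ideal.span {x}).mul_mem_right (↑v⁻¹) ha)
  have hK0 : ∀ a : A, x' * a ∈ (⊥ : Ideal Ap).comap (algebraMap A Ap) →
      a ∈ (⊥ : Ideal Ap).comap (algebraMap A Ap) := by
    intro a ha
    rw [Ideal.mem_comap, Ideal.mem_bot] at ha ⊢
    rw [map_mul, ← hxs, mul_right_comm] at ha
    have h1 : x * algebraMap A Ap a = 0 := by
      have := hus.mul_left_injective (a₁ := x * algebraMap A Ap a) (a₂ := 0) (by simpa using ha)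
      exact this
    exact (mul_left_mem_nonZeroDivisors_eq_zero_iff hx0).1 h1
  obtain ⟨u, hu⟩ := Ideal.mem_span_singleton'.1 ((hb x').1 hx'p)
  obtain ⟨v, hv⟩ := Ideal.mem_span_singleton'.1 ((hb y').1 hy'p)
  have h1 : algebraMap A B y' * u = algebraMap A B x' * v := by
    have : (algebraMap A B y' * u - algebraMap A B x' * v) * g = 0 := by
      have e1 : algebraMap A B y' * u * g = algebraMap A B y' * (algebraMap A B x' * b) := by
        rw [mul_assoc, hu]
      have e2 : algebraMap A B x' * v * g = algebraMap A B x' * (algebraMap A B y' * b) := by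
        rw [mul_assoc, hv]
      rw [sub_mul, e1, e2]; ring
    exact sub_eq_zero.1 ((mul_right_mem_nonZeroDivisors_eq_zero_iff hg).1 this)
  have hx'K : x' ∈ K := Ideal.subset_span rfl
  have h2 : u ∈ K.map (algebraMap A B) := by
    apply mem_map_of_mul_mem K y' hK
    rw [h1]
    exact Ideal.mul_mem_right _ _ (Ideal.mem_map_of_mem _ hx'K)
  have hKs : ∃ s ∉ p, ∀ a ∈ K, s * a ∈ Ideal.span {x'} := by
    apply exists_uniform p K _ (IsNoetherian.noetherian K)
    intro a ha
    have ha' : algebraMap A Ap a ∈ (Ideal.span {x'}).map (algebraMap A Ap) := by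
      rw [Ideal.map_span, Set.image_singleton]; exact ha
    rw [IsLocalization.algebraMap_mem_map_algebraMap_iff p.primeCompl] at ha'
    obtain ⟨m, hm, hm'⟩ := ha'
    exact ⟨m, hm, hm'⟩
  obtain ⟨s1, hs1, hs1K⟩ := hKs
  have h3 := mul_mem_map K _ s1 hs1K u h2
  rw [Ideal.map_span, Set.image_singleton] at h3
  obtain ⟨w, hw⟩ := Ideal.mem_span_singleton'.1 h3
  have h4 : algebraMap A B x' * (algebraMap A B s1 * b - w * g) = 0 := by
    have e1 : algebraMap A B x' * (algebraMap A B s1 * b) = algebraMap A B s1 * (u * g) := by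
      rw [hu]; ring
    have e2 : algebraMap A B x' * (w * g) = algebraMap A B s1 * u * g := by
      rw [← hw]; ring
    rw [mul_sub, e1, e2]; ring
  have h5 : (algebraMap A B s1 * b - w * g) ∈
      ((⊥ : Ideal Ap).comap (algebraMap A Ap)).map (algebraMap A B) := by
    apply mem_map_of_mul_mem _ x' hK0
    rw [h4]; exact zero_mem _
  have hKs0 : ∃ s ∉ p, ∀ a ∈ (⊥ : Ideal Ap).comap (algebraMap A Ap), s * a ∈ (⊥ : Ideal A) := by
    apply exists_uniform p _ _ (IsNoetherian.noetherian _)
    intro a ha
    rw [Ideal.mem_comap, Ideal.mem_bot, IsLocalization.map_eq_zero_iff p.primeCompl] at ha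
    obtain ⟨m, hm⟩ := ha
    exact ⟨m.1, m.2, hm⟩
  obtain ⟨s2, hs2, hs2K⟩ := hKs0
  have h6 := mul_mem_map _ _ s2 hs2K _ h5
  rw [Ideal.map_bot, Ideal.mem_bot] at h6
  have h7 : algebraMap A B (s2 * s1) * b ∈ Ideal.span {g} := by
    rw [Ideal.mem_span_singleton']
    refine ⟨algebraMap A B s2 * w, ?_⟩
    rw [map_mul]
    linear_combination -h6
  rw [← hb] at h7
  exact (hp.mem_or_mem h7).elim hs2 hs1

/-- Main algebra lemma: descent of principal ideals generated by nonzerodivisors along a finite family of flat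
algebras over a Noetherian ring, from the primes of depth at most one. -/
theorem map_iInf_comap_eq {A : Type u} [CommRing A] [IsNoetherianRing A] {ι : Type w} [Finite ι]
    (B : ι → Type v) [∀ i, CommRing (B i)] [∀ i, Algebra A (B i)] [∀ i, Module.Flat A (B i)]
    (J : ∀ i, Ideal (B i))
    (hJ : ∀ i, ∃ g ∈ nonZeroDivisors (B i), J i = Ideal.span {g})
    (h : ∀ (p : Ideal A) [p.IsPrime], DepthLeOne (Localization.AtPrime p) → ∃ I : Ideal A,
      (∀ i, ∀ b ∈ J i, ∃ s ∉ p, algebraMap A (B i) s * b ∈ I.map (algebraMap A (B i))) ∧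
      ∀ a ∈ I, ∀ i, ∃ s ∉ p, algebraMap A (B i) (s * a) ∈ J i) (i : ι) :
    (⨅ j, (J j).comap (algebraMap A (B j))).map (algebraMap A (B i)) = J i := by
  set I : Ideal A := ⨅ j, (J j).comap (algebraMap A (B j)) with hIdef
  apply le_antisymm
  · rw [Ideal.map_le_iff_le_comap]
    exact iInf_le _ i
  intro b hb
  -- `K = (I B : b) ∩ A`
  let K : Ideal A := (Submodule.comap (LinearMap.toSpanSingleton A (B i) b)
    ((I.map (algebraMap A (B i))).restrictScalars A))
  have hKmem : ∀ a : A, a ∈ K ↔ algebraMap A (B i) a * b ∈ I.map (algebraMap A (B i)) := by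
    intro a
    simp only [K, Submodule.mem_comap, LinearMap.toSpanSingleton_apply, Submodule.restrictScalars_mem,
      Algebra.smul_def]
  -- it is enough to find an element of `K` which is a nonzerodivisor mod `I`
  suffices hs : ∃ s ∈ K, ∀ a : A, s * a ∈ I → a ∈ I by
    obtain ⟨s, hsK, hs⟩ := hs
    exact mem_map_of_mul_mem I s hs b ((hKmem s).1 hsK)
  by_cases hIK : K ≤ ⋃ q ∈ associatedPrimes A (A ⧸ I), (q : Set A)
  · exfalso
    have hfin : (associatedPrimes A (A ⧸ I)).Finite := associatedPrimes.finite A (A ⧸ I)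
    have : ∃ q ∈ hfin.toFinset, K ≤ id q := by
      rw [← Ideal.subset_union_prime (R := A) (s := hfin.toFinset) (f := id) ⊥ ⊥]
      · intro x hx
        have := hIK hx
        simpa using this
      · intro q hq _ _
        exact ((hfin.mem_toFinset).1 hq).isPrime
    obtain ⟨q, hq, hKq⟩ := this
    simp only [id_eq] at hKq
    rw [hfin.mem_toFinset] at hq
    rw [Ega4B.Zariski.mem_associatedPrimes_quotient_iff] at hq
    obtain ⟨hqp, y, hy⟩ := hq
    -- `q = ⋂ j, {d | d y ∈ J j}`
    let C : ι → Ideal A := fun j => Submodule.comap (LinearMap.toSpanSingleton A (B j) (algebraMap A (B j) y))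
      ((J j).restrictScalars A)
    have hC : ∀ j (d : A), d ∈ C j ↔ algebraMap A (B j) d * algebraMap A (B j) y ∈ J j := by
      intro j d
      simp only [C, Submodule.mem_comap, LinearMap.toSpanSingleton_apply, Submodule.restrictScalars_mem,
        Algebra.smul_def]
    have hqC : q = ⨅ j, C j := by
      ext d
      rw [hy, hIdef, Submodule.mem_iInf, Submodule.mem_iInf]
      refine forall_congr' fun j => ?_
      rw [hC, Ideal.mem_comap, map_mul]
    obtain ⟨j, hj⟩ : ∃ j, C j ≤ q := by
      have := Fintype.ofFinite ι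
      have h1 : (Finset.univ.inf C) ≤ q := by
        rw [hqC, Finset.inf_univ_eq_iInf]
      obtain ⟨j, -, hj⟩ := (hqp.inf_le').1 h1
      exact ⟨j, hj⟩
    have hj' : ∀ d : A, d ∈ q ↔ algebraMap A (B j) d * algebraMap A (B j) y ∈ J j := by
      intro d
      rw [← hC]
      refine ⟨fun hd => ?_, fun hd => hj hd⟩
      rw [hqC, Submodule.mem_iInf] at hd
      exact hd j
    obtain ⟨g, hg, hJg⟩ := hJ j
    have hdepth : DepthLeOne (Localization.AtPrime q) :=
      depthLeOne_of_colon q (Localization.AtPrime q) g hg (algebraMap A (B j) y) (by rw [← hJg]; exact hj')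
    obtain ⟨Iq, h1, h2⟩ := h q hdepth
    obtain ⟨s, hs, hsb⟩ := h1 i b hb
    have h3 : ∀ a ∈ Iq, ∃ t ∉ q, t * a ∈ I := by
      intro a ha
      have hch := fun j => h2 a ha j
      choose t ht htJ using hch
      have := Fintype.ofFinite ι
      refine ⟨∏ j, t j, ?_, ?_⟩
      · rw [hqp.prod_mem_iff]
        push Not
        exact fun j _ => ht j
      · rw [hIdef, Submodule.mem_iInf]
        intro j
        rw [Ideal.mem_comap]
        classical
        rw [← Finset.prod_erase_mul _ _ (Finset.mem_univ j), mul_assoc, map_mul]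
        exact Ideal.mul_mem_left _ _ (htJ j)
    obtain ⟨t, ht, htI⟩ := exists_uniform q Iq I (IsNoetherian.noetherian _) h3
    have h4 := mul_mem_map Iq I t htI _ hsb
    rw [← mul_assoc, ← map_mul, ← hKmem] at h4
    exact (hqp.mem_or_mem (hKq h4)).elim ht hs
  · obtain ⟨s, hsK, hs⟩ := Set.not_subset.1 hIK
    refine ⟨s, hsK, fun a ha => ?_⟩
    rw [biUnion_associatedPrimes_eq_zero_divisors A (A ⧸ I)] at hs
    by_contra haI
    apply hs
    refine ⟨Ideal.Quotient.mk I a, ?_, ?_⟩
    · rwa [Ne, Ideal.Quotient.eq_zero_iff_mem]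
    · have : s • Ideal.Quotient.mk I a = Ideal.Quotient.mk I (s * a) := rfl
      rw [this, Ideal.Quotient.eq_zero_iff_mem]
      exact ha

end Groth.Agent.Ega4late.H533.DescAlg
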