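import Groth.Agent.Ega4late.H533.DescAlg
import Groth.Agent.Divis.CartierBasic
import Groth.Agent.Divis.EffCartier
import Mathlib.RingTheory.Flat.FaithfullyFlat.Algebra
import Mathlib.AlgebraicGeometry.Noetherian

/-!
# Faithfully flat descent of effective Cartier ideals from the points of depth at most one

Let `f : X ⟶ Y` be a flat surjective morphism of locally Noetherian schemes, quasi-compact or open, and `𝓙` an
effective Cartier ideal on `X`.  If, for every `y` in `Y` with `depth O_{Y,y} ≤ 1`, the ideal `𝓙` comes, over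
the generizations of `y`, from an ideal of `O_{Y,y}`, then `𝓙 = 𝓘.comap f` for an effective Cartier ideal `𝓘`.
-/

set_option autoImplicit false

universe u

open CategoryTheory CategoryTheory.Limits AlgebraicGeometry TopologicalSpace

namespace Groth.Agent.Ega4late.H533.DescScheme

open Groth.Agent.Divis.CartierBasic Groth.Agent.Ega4late.H533.DescAlg

/-- `DepthLeOne` only depends on the ring up to isomorphism. -/
theorem depthLeOne_of_ringEquiv {R S : Type*} [CommRing R] [CommRing S] [IsLocalRing R] [IsLocalRing S]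
    (e : R ≃+* S) (h : DepthLeOne R) : DepthLeOne S := by
  intro x hx y hy hx0
  have hmem : ∀ z : S, z ∈ IsLocalRing.maximalIdeal S → e.symm z ∈ IsLocalRing.maximalIdeal R := by
    intro z hz
    rw [IsLocalRing.mem_maximalIdeal, mem_nonunits_iff] at hz ⊢
    rwa [isUnit_map_iff]
  obtain ⟨z, hz1, hz2⟩ := h (e.symm x) (hmem x hx) (e.symm y) (hmem y hy) (by
    rw [mem_nonZeroDivisors_iff_right] at hx0 ⊢
    intro a ha
    have := hx0 (e a) (by rw [← e.apply_symm_apply x, ← map_mul, ha, map_zero])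
    simpa using this)
  refine ⟨e z, ?_, ?_⟩
  · rw [Ideal.mem_span_singleton'] at hz1 ⊢
    obtain ⟨a, ha⟩ := hz1
    exact ⟨e a, by rw [← e.apply_symm_apply x, ← map_mul, ha, map_mul, e.apply_symm_apply]⟩
  · intro hc
    apply hz2
    rw [Ideal.mem_span_singleton'] at hc ⊢
    obtain ⟨a, ha⟩ := hc
    exact ⟨e.symm a, by rw [← map_mul, ha, e.symm_apply_apply]⟩

/-- comparison of two ideals of an algebra locally on the base -/
theorem exists_mul_mem_of_forall_prime {A B : Type*} [CommRing A] [CommRing B] [Algebra A B] (p : Ideal A)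
    [p.IsPrime] (I K : Ideal B)
    (h : ∀ Q : Ideal B, Q.IsPrime → Q.comap (algebraMap A B) ≤ p → ∀ b ∈ I, ∃ t ∉ Q, t * b ∈ K) (b : B)
    (hb : b ∈ I) : ∃ s ∉ p, algebraMap A B s * b ∈ K := by
  by_contra hcon
  push Not at hcon
  let C : Ideal B := Submodule.comap (LinearMap.toSpanSingleton B B b) K
  have hC : ∀ t : B, t ∈ C ↔ t * b ∈ K := by
    intro t
    simp [C, Submodule.mem_comap, LinearMap.toSpanSingleton_apply]
  have hdisj : Disjoint (C : Set B) (p.primeCompl.map (algebraMap A B) : Set B) := by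
    rw [Set.disjoint_left]
    rintro _ hx ⟨s, hs, rfl⟩
    exact hcon s hs ((hC _).1 hx)
  obtain ⟨Q, hQ, hCQ, hQd⟩ := Ideal.exists_le_prime_disjoint C _ hdisj
  obtain ⟨t, ht, htb⟩ := h Q hQ (by
    intro s hs
    by_contra hsp
    exact Set.disjoint_left.1 hQd hs ⟨s, hsp, rfl⟩) b hb
  exact ht (hCQ ((hC t).2 htb))

variable {X Y : Scheme.{u}}

theorem exists_primeIdealOf_eq {U : X.Opens} (hU : IsAffineOpen U) (Q : PrimeSpectrum Γ(X, U)) :
    ∃ (x : X) (hx : x ∈ U), hU.primeIdealOf ⟨x, hx⟩ = Q := by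
  refine ⟨(hU.isoSpec.inv Q).1, (hU.isoSpec.inv Q).2, ?_⟩
  change hU.isoSpec.hom (hU.isoSpec.inv Q) = Q
  rw [← Scheme.Hom.comp_apply, Iso.inv_hom_id]
  rfl

theorem specializes_of_le {U : X.Opens} (hU : IsAffineOpen U) {x y : X} (hx : x ∈ U) (hy : y ∈ U)
    (h : (hU.primeIdealOf ⟨x, hx⟩).asIdeal ≤ (hU.primeIdealOf ⟨y, hy⟩).asIdeal) : x ⤳ y := by
  have h1 : hU.primeIdealOf ⟨x, hx⟩ ⤳ hU.primeIdealOf ⟨y, hy⟩ :=
    (PrimeSpectrum.le_iff_specializes _ _).1 h
  have h2 := h1.map hU.fromSpec.continuous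
  rwa [hU.fromSpec_primeIdealOf, hU.fromSpec_primeIdealOf] at h2

variable (f : X ⟶ Y)

/-- compatibility of germs with the composite of a cospecialization map and a stalk map -/
theorem germ_comp (V : Y.Opens) (U : X.Opens) (e : U ≤ f ⁻¹ᵁ V) (y : Y) (hy : y ∈ V) (x : X) (hx : x ∈ U)
    (h : f x ⤳ y) :
    Y.presheaf.germ V y hy ≫ Y.presheaf.stalkSpecializes h ≫ f.stalkMap x =
      f.appLE V U e ≫ X.presheaf.germ U x hx := by
  rw [Scheme.Hom.appLE, Category.assoc, TopCat.Presheaf.germ_res, ← Category.assoc]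
  rw [TopCat.Presheaf.germ_stalkSpecializes]
  exact Scheme.Hom.germ_stalkMap f V x (e hx)

theorem map_germ_map (V : Y.Opens) (U : X.Opens) (e : U ≤ f ⁻¹ᵁ V) (y : Y) (hy : y ∈ V) (x : X) (hx : x ∈ U)
    (h : f x ⤳ y) (I : Ideal Γ(Y, V)) :
    (I.map (Y.presheaf.germ V y hy).hom).map (Y.presheaf.stalkSpecializes h ≫ f.stalkMap x).hom =
      (I.map (f.appLE V U e).hom).map (X.presheaf.germ U x hx).hom := by
  rw [Ideal.map_map, Ideal.map_map, ← CommRingCat.hom_comp, ← CommRingCat.hom_comp, germ_comp f V U e y hy x hx h]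

theorem map_germ_stalkMap (V : Y.Opens) (U : X.Opens) (e : U ≤ f ⁻¹ᵁ V) (x : X) (hx : x ∈ U)
    (I : Ideal Γ(Y, V)) :
    (I.map (Y.presheaf.germ V (f x) (e hx)).hom).map (f.stalkMap x).hom =
      (I.map (f.appLE V U e).hom).map (X.presheaf.germ U x hx).hom := by
  have h := map_germ_map f V U e (f x) (e hx) x hx (specializes_refl _) I
  rw [← h, TopCat.Presheaf.stalkSpecializes_refl, Category.id_comp]

theorem exists_affine_nhd (V : Y.Opens) (x : X) (hx : f x ∈ V) :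
    ∃ U : X.affineOpens, x ∈ U.1 ∧ U.1 ≤ f ⁻¹ᵁ V := by
  obtain ⟨U, hxU, h1, -⟩ := exists_affine_le (X := X) (x := x) (f ⁻¹ᵁ V) (f ⁻¹ᵁ V) hx hx
  exact ⟨U, hxU, h1⟩

/-- Faithful flatness of the stalk maps. -/
theorem le_of_map_stalkMap_le [Flat f] (x : X) (I K : Ideal (Y.presheaf.stalk (f x)))
    (h : I.map (f.stalkMap x).hom ≤ K.map (f.stalkMap x).hom) : I ≤ K := by
  algebraize [(f.stalkMap x).hom]
  have hfl : Module.Flat (Y.presheaf.stalk (f x)) (X.presheaf.stalk x) := Flat.stalkMap f x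
  have hloc : IsLocalHom (algebraMap (Y.presheaf.stalk (f x)) (X.presheaf.stalk x)) :=
    inferInstanceAs (IsLocalHom (f.stalkMap x).hom)
  have : Module.FaithfullyFlat (Y.presheaf.stalk (f x)) (X.presheaf.stalk x) :=
    Module.FaithfullyFlat.of_flat_of_isLocalHom
  have h' : I.map (algebraMap (Y.presheaf.stalk (f x)) (X.presheaf.stalk x)) ≤
    K.map (algebraMap (Y.presheaf.stalk (f x)) (X.presheaf.stalk x)) := h
  rw [← Ideal.comap_map_eq_self_of_faithfullyFlat (B := X.presheaf.stalk x) K]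
  exact Ideal.map_le_iff_le_comap.1 h'

/-- Joint faithful flatness of the charts: ideals of `Γ(Y, V)` are compared after extension to all affine opens over
`V`. -/
theorem le_of_forall_map_le [Flat f] (V : Y.affineOpens) (I K : Ideal Γ(Y, V.1))
    (h : ∀ y ∈ V.1, ∃ (x : X) (U : X.affineOpens) (e : U.1 ≤ f ⁻¹ᵁ V.1), f x = y ∧ x ∈ U.1 ∧
      I.map (f.appLE V.1 U.1 e).hom ≤ K.map (f.appLE V.1 U.1 e).hom) : I ≤ K := by
  rw [V.2.ideal_le_iff]
  intro y hy
  obtain ⟨x, U, e, rfl, hxU, hle⟩ := h y hy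
  apply le_of_map_stalkMap_le f x
  rw [map_germ_stalkMap f V.1 U.1 e x hxU, map_germ_stalkMap f V.1 U.1 e x hxU]
  exact Ideal.map_mono hle

/-- `𝓙` comes, over the generizations of `y`, from an ideal of `O_{Y,y}`. -/
def DescAt (𝓙 : X.IdealSheafData) (y : Y) : Prop :=
  ∃ I : Ideal (Y.presheaf.stalk y), ∀ (x : X) (h : f x ⤳ y),
    I.map (Y.presheaf.stalkSpecializes h ≫ f.stalkMap x).hom = stalkIdeal 𝓙 x

theorem germ_mem_iff {U : X.affineOpens} (x : X) (hx : x ∈ U.1) (I : Ideal Γ(X, U.1)) (b : Γ(X, U.1)) :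
    X.presheaf.germ U.1 x hx b ∈ I.map (X.presheaf.germ U.1 x hx).hom ↔
      ∃ t ∉ (U.2.primeIdealOf ⟨x, hx⟩).asIdeal, t * b ∈ I := by
  let := X.presheaf.algebra_section_stalk (⟨x, hx⟩ : U.1)
  have hloc : IsLocalization.AtPrime (X.presheaf.stalk x) (U.2.primeIdealOf ⟨x, hx⟩).asIdeal :=
    U.2.isLocalization_stalk ⟨x, hx⟩
  exact IsLocalization.algebraMap_mem_map_algebraMap_iff
    (U.2.primeIdealOf ⟨x, hx⟩).asIdeal.primeCompl (X.presheaf.stalk x) I b

theorem map_iInf_finite [Flat f] [IsLocallyNoetherian Y] (𝓙 : X.IdealSheafData) (V : Y.affineOpens)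
    (hdesc : ∀ y ∈ V.1, DepthLeOne (Y.presheaf.stalk y) → DescAt f 𝓙 y)
    {ι : Type u} [Finite ι] (U : ι → X.affineOpens) (e : ∀ i, (U i).1 ≤ f ⁻¹ᵁ V.1)
    (hU : ∀ i, Divis.EffCartier.PrincAt 𝓙 (U i)) (i : ι) :
    (⨅ j, (𝓙.ideal (U j)).comap (f.appLE V.1 (U j).1 (e j)).hom).map (f.appLE V.1 (U i).1 (e i)).hom =
      𝓙.ideal (U i) := by
  let B : ι → Type u := fun i => Γ(X, (U i).1)
  let alg : ∀ i, Algebra Γ(Y, V.1) Γ(X, (U i).1) := fun i => (f.appLE V.1 (U i).1 (e i)).hom.toAlgebra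
  have hfl : ∀ i, Module.Flat Γ(Y, V.1) Γ(X, (U i).1) := fun i =>
    Scheme.Hom.flat_appLE f V.2 (U i).2 (e i)
  have hN : IsNoetherianRing Γ(Y, V.1) := IsLocallyNoetherian.component_noetherian V
  refine map_iInf_comap_eq (A := Γ(Y, V.1)) (fun i => Γ(X, (U i).1)) (fun i => 𝓙.ideal (U i)) hU ?_ i
  intro p hp hdepth
  obtain ⟨y, hy, hyp⟩ := exists_primeIdealOf_eq V.2 ⟨p, hp⟩
  let := Y.presheaf.algebra_section_stalk (⟨y, hy⟩ : V.1)
  have hloc : IsLocalization.AtPrime (Y.presheaf.stalk y) p := by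
    have := V.2.isLocalization_stalk ⟨y, hy⟩
    rwa [hyp] at this
  have hdepth' : DepthLeOne (Y.presheaf.stalk y) :=
    depthLeOne_of_ringEquiv
      (IsLocalization.algEquiv p.primeCompl (Localization.AtPrime p) (Y.presheaf.stalk y)).toRingEquiv hdepth
  obtain ⟨I, hI⟩ := hdesc y hy hdepth'
  -- the stalk ideals at the points of `U i` over the generizations of `y`
  have key : ∀ (j : ι) (x : X) (hx : x ∈ (U j).1), f x ⤳ y →
      ((I.comap (Y.presheaf.germ V.1 y hy).hom).map (f.appLE V.1 (U j).1 (e j)).hom).map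
        (X.presheaf.germ (U j).1 x hx).hom = (𝓙.ideal (U j)).map (X.presheaf.germ (U j).1 x hx).hom := by
    intro j x hx h
    rw [← stalkIdeal_eq, ← hI x h, ← map_germ_map f V.1 (U j).1 (e j) y hy x hx h]
    congr 1
    exact IsLocalization.map_under p.primeCompl (Y.presheaf.stalk y) I
  have key2 : ∀ (j : ι) (Q : Ideal Γ(X, (U j).1)) (hQ : Q.IsPrime),
      Q.comap (algebraMap Γ(Y, V.1) Γ(X, (U j).1)) ≤ p →
      ∃ (x : X) (hx : x ∈ (U j).1), f x ⤳ y ∧ ((U j).2.primeIdealOf ⟨x, hx⟩).asIdeal = Q := by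
    intro j Q hQ hQp
    obtain ⟨x, hx, hxQ⟩ := exists_primeIdealOf_eq (U j).2 ⟨Q, hQ⟩
    refine ⟨x, hx, ?_, by rw [hxQ]⟩
    apply specializes_of_le V.2 (e j hx) hy
    rw [← IsAffineOpen.comap_primeIdealOf_appLE V.1 V.2 (U j).1 (U j).2 (e j) hx, hyp, hxQ]
    exact hQp
  refine ⟨I.comap (Y.presheaf.germ V.1 y hy).hom, ?_, ?_⟩
  · intro j b hb
    refine exists_mul_mem_of_forall_prime p (𝓙.ideal (U j)) _ ?_ b hb
    intro Q hQ hQp b hb
    obtain ⟨x, hx, hxy, rfl⟩ := key2 j Q hQ hQp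
    rw [← germ_mem_iff x hx]
    have := key j x hx hxy
    change _ ∈ Ideal.map _ (Ideal.map (f.appLE V.1 (U j).1 (e j)).hom _)
    rw [this]
    exact Ideal.mem_map_of_mem _ hb
  · intro a ha j
    have ha' : algebraMap Γ(Y, V.1) Γ(X, (U j).1) a ∈
        (I.comap (Y.presheaf.germ V.1 y hy).hom).map (algebraMap Γ(Y, V.1) Γ(X, (U j).1)) :=
      Ideal.mem_map_of_mem _ ha
    obtain ⟨s, hs, hsa⟩ := exists_mul_mem_of_forall_prime p _ (𝓙.ideal (U j)) (by
      intro Q hQ hQp b hb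
      obtain ⟨x, hx, hxy, rfl⟩ := key2 j Q hQ hQp
      rw [← germ_mem_iff x hx, ← key j x hx hxy]
      exact Ideal.mem_map_of_mem _ hb) _ ha'
    refine ⟨s, hs, ?_⟩
    rw [map_mul]
    exact hsa

theorem exists_finite_charts [Surjective f] (hf : QuasiCompact f ∨ IsOpenMap f) {𝓙 : X.IdealSheafData}
    (hJ : BlowUp.IsEffCartierIdeal 𝓙) (V : Y.affineOpens) :
    ∃ (ι : Type u) (_ : Finite ι) (U : ι → X.affineOpens), (∀ i, (U i).1 ≤ f ⁻¹ᵁ V.1) ∧
      (∀ i, Divis.EffCartier.PrincAt 𝓙 (U i)) ∧ ∀ y ∈ V.1, ∃ (i : ι) (x : X), x ∈ (U i).1 ∧ f x = y := by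
  have hch : ∀ x : (f ⁻¹ᵁ V.1 : X.Opens), ∃ U : X.affineOpens, x.1 ∈ U.1 ∧ U.1 ≤ f ⁻¹ᵁ V.1 ∧
      Divis.EffCartier.PrincAt 𝓙 U := fun x => Divis.EffCartier.exists_princAt hJ x.1 _ x.2
  choose U hxU hUV hUp using hch
  rcases hf with hf | hf
  · have hc : IsCompact ((f ⁻¹ᵁ V.1 : X.Opens) : Set X) :=
      QuasiCompact.isCompact_preimage (f := f) (V.1 : Set Y) V.1.2 V.2.isCompact
    obtain ⟨t, ht⟩ := hc.elim_finite_subcover (fun x : (f ⁻¹ᵁ V.1 : X.Opens) => ((U x).1 : Set X))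
      (fun x => (U x).1.2) (fun x hx => Set.mem_iUnion.2 ⟨⟨x, hx⟩, hxU ⟨x, hx⟩⟩)
    refine ⟨↥t, inferInstance, fun x => U x.1, fun x => hUV _, fun x => hUp _, ?_⟩
    intro y hy
    obtain ⟨x, rfl⟩ := f.surjective y
    obtain ⟨z, hz⟩ := Set.mem_iUnion.1 (ht (show x ∈ ((f ⁻¹ᵁ V.1 : X.Opens) : Set X) from hy))
    obtain ⟨hz, hxz⟩ := Set.mem_iUnion.1 hz
    exact ⟨⟨z, hz⟩, x, hxz, rfl⟩
  · have hc : IsCompact (V.1 : Set Y) := V.2.isCompact
    obtain ⟨t, ht⟩ := hc.elim_finite_subcover (fun x : (f ⁻¹ᵁ V.1 : X.Opens) => f '' ((U x).1 : Set X))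
      (fun x => hf _ (U x).1.2) (fun y hy => by
        obtain ⟨x, rfl⟩ := f.surjective y
        exact Set.mem_iUnion.2 ⟨⟨x, hy⟩, x, hxU ⟨x, hy⟩, rfl⟩)
    refine ⟨↥t, inferInstance, fun x => U x.1, fun x => hUV _, fun x => hUp _, ?_⟩
    intro y hy
    obtain ⟨z, hz⟩ := Set.mem_iUnion.1 (ht hy)
    obtain ⟨hz', x, hxz, rfl⟩ := Set.mem_iUnion.1 hz
    exact ⟨⟨z, hz'⟩, x, hxz, rfl⟩

/-- The descended ideal on an affine open of `Y`. -/
theorem exists_ideal [Flat f] [Surjective f] [IsLocallyNoetherian Y] (hf : QuasiCompact f ∨ IsOpenMap f)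
    {𝓙 : X.IdealSheafData} (hJ : BlowUp.IsEffCartierIdeal 𝓙) (V : Y.affineOpens)
    (hdesc : ∀ y ∈ V.1, DepthLeOne (Y.presheaf.stalk y) → DescAt f 𝓙 y) :
    ∃ I : Ideal Γ(Y, V.1), ∀ (U : X.affineOpens) (e : U.1 ≤ f ⁻¹ᵁ V.1),
      I.map (f.appLE V.1 U.1 e).hom = 𝓙.ideal U := by
  obtain ⟨ι, hι, U, hUV, hUp, hUs⟩ := exists_finite_charts f hf hJ V
  let I : Ideal Γ(Y, V.1) := ⨅ j, (𝓙.ideal (U j)).comap (f.appLE V.1 (U j).1 (hUV j)).hom
  have hI : ∀ j, I.map (f.appLE V.1 (U j).1 (hUV j)).hom = 𝓙.ideal (U j) := fun j =>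
    map_iInf_finite f 𝓙 V hdesc U hUV hUp j
  -- charts on which `𝓙` is principal
  have h1 : ∀ (W : X.affineOpens) (e : W.1 ≤ f ⁻¹ᵁ V.1), Divis.EffCartier.PrincAt 𝓙 W →
      I.map (f.appLE V.1 W.1 e).hom = 𝓙.ideal W := by
    intro W e hW
    let U' : Option ι → X.affineOpens := fun o => o.elim W U
    have hU'V : ∀ o, (U' o).1 ≤ f ⁻¹ᵁ V.1 := by
      rintro (_ | i)
      · exact e
      · exact hUV i
    have hU'p : ∀ o, Divis.EffCartier.PrincAt 𝓙 (U' o) := by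
      rintro (_ | i)
      · exact hW
      · exact hUp i
    let I' : Ideal Γ(Y, V.1) := ⨅ j, (𝓙.ideal (U' j)).comap (f.appLE V.1 (U' j).1 (hU'V j)).hom
    have hI' : ∀ j, I'.map (f.appLE V.1 (U' j).1 (hU'V j)).hom = 𝓙.ideal (U' j) := fun j =>
      map_iInf_finite f 𝓙 V hdesc U' hU'V hU'p j
    have hII' : I = I' := by
      apply le_antisymm
      · apply le_of_forall_map_le f V
        intro y hy
        obtain ⟨i, x, hx, hxy⟩ := hUs y hy
        refine ⟨x, U i, hUV i, hxy, hx, ?_⟩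
        rw [hI i]
        exact (hI' (some i)).ge
      · exact le_iInf fun i => iInf_le (fun j => (𝓙.ideal (U' j)).comap (f.appLE V.1 (U' j).1 (hU'V j)).hom)
          (some i)
    rw [hII']
    exact hI' none
  refine ⟨I, fun W e => ?_⟩
  rw [W.2.ideal_ext_iff]
  intro x hx
  obtain ⟨W', hxW', hW'W, hW'p⟩ := Divis.EffCartier.exists_princAt hJ x W.1 hx
  have e' : W'.1 ≤ f ⁻¹ᵁ V.1 := hW'W.trans e
  have h2 := h1 W' e' hW'p
  rw [map_germ_eq 𝓙 W W' hx hxW', ← h2, ← map_germ_stalkMap f V.1 W.1 e x hx,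
    ← map_germ_stalkMap f V.1 W'.1 e' x hxW']

/-- Gluing: an ideal sheaf on `X` which comes, over each affine open of `Y`, from an ideal, comes from an ideal sheaf
on `Y`. -/
theorem exists_comap_eq [Flat f] [Surjective f] (𝓙 : X.IdealSheafData)
    (H : ∀ V : Y.affineOpens, ∃ I : Ideal Γ(Y, V.1), ∀ (U : X.affineOpens) (e : U.1 ≤ f ⁻¹ᵁ V.1),
      I.map (f.appLE V.1 U.1 e).hom = 𝓙.ideal U) :
    ∃ 𝓘 : Y.IdealSheafData, 𝓘.comap f = 𝓙 := by
  choose I hI using H
  have key : ∀ (V : Y.affineOpens) (g : Γ(Y, V.1)) (y : Y), y ∈ (Y.affineBasicOpen g).1 →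
      ∃ (x : X) (U : X.affineOpens) (e : U.1 ≤ f ⁻¹ᵁ (Y.affineBasicOpen g).1), f x = y ∧ x ∈ U.1 ∧
        ((I V).map (Y.presheaf.map (homOfLE <| Y.basicOpen_le g).op).hom).map
          (f.appLE (Y.affineBasicOpen g).1 U.1 e).hom =
        (I (Y.affineBasicOpen g)).map (f.appLE (Y.affineBasicOpen g).1 U.1 e).hom := by
    intro V g y hy
    obtain ⟨x, rfl⟩ := f.surjective y
    obtain ⟨U, hxU, e⟩ := exists_affine_nhd f (Y.affineBasicOpen g).1 x hy
    have e' : U.1 ≤ f ⁻¹ᵁ V.1 := fun z hz => Y.basicOpen_le g (e hz)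
    refine ⟨x, U, e, rfl, hxU, ?_⟩
    rw [hI (Y.affineBasicOpen g) U e, ← hI V U e']
    change Ideal.map (f.appLE (Y.basicOpen g) U.1 e).hom
      (Ideal.map (Y.presheaf.map (homOfLE (Y.basicOpen_le g)).op).hom (I V)) = _
    rw [Ideal.map_map, ← CommRingCat.hom_comp, Scheme.Hom.map_appLE]
  let 𝓘 : Y.IdealSheafData :=
    { ideal := I
      map_ideal_basicOpen := by
        intro V g
        apply le_antisymm
        · apply le_of_forall_map_le f (Y.affineBasicOpen g)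
          intro y hy
          obtain ⟨x, U, e, h1, h2, h3⟩ := key V g y hy
          exact ⟨x, U, e, h1, h2, h3.le⟩
        · apply le_of_forall_map_le f (Y.affineBasicOpen g)
          intro y hy
          obtain ⟨x, U, e, h1, h2, h3⟩ := key V g y hy
          exact ⟨x, U, e, h1, h2, h3.ge⟩ }
  refine ⟨𝓘, ext_stalkIdeal fun x => ?_⟩
  obtain ⟨V, hV⟩ := exists_affine (X := Y) (f x)
  obtain ⟨U, hxU, e⟩ := exists_affine_nhd f V.1 x hV
  rw [stalkIdeal_eq _ U hxU, stalkIdeal_eq _ U hxU, Divis.IdealComap.ideal_comap _ f V U e]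
  congr 1
  exact hI V U e

/-- The stalk ideals of an inverse image ideal sheaf. -/
theorem stalkIdeal_comap (𝓘 : Y.IdealSheafData) (x : X) :
    stalkIdeal (𝓘.comap f) x = (stalkIdeal 𝓘 (f x)).map (f.stalkMap x).hom := by
  obtain ⟨V, hV⟩ := exists_affine (X := Y) (f x)
  obtain ⟨U, hxU, e⟩ := exists_affine_nhd f V.1 x hV
  rw [stalkIdeal_eq _ U hxU, stalkIdeal_eq _ V (e hxU), Divis.IdealComap.ideal_comap _ f V U e,
    map_germ_stalkMap f V.1 U.1 e x hxU]

/-- Faithfully flat local descent of principal ideals generated by a nonzerodivisor. -/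
theorem exists_generator_of_map {A B : Type u} [CommRing A] [CommRing B] [IsLocalRing B]
    [Algebra A B] [Module.FaithfullyFlat A B] (I : Ideal A) (g : B)
    (hg : g ∈ nonZeroDivisors B) (h : I.map (algebraMap A B) = Ideal.span {g}) :
    ∃ a ∈ nonZeroDivisors A, I = Ideal.span {a} := by
  have hinj : Function.Injective (algebraMap A B) := FaithfulSMul.algebraMap_injective A B
  -- some element of `I` generates `I B`
  have h1 : ∃ a ∈ I, Ideal.span {algebraMap A B a} = Ideal.span {g} := by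
    by_contra hcon
    push Not at hcon
    have h2 : I.map (algebraMap A B) ≤ IsLocalRing.maximalIdeal B * Ideal.span {g} := by
      rw [Ideal.map_le_iff_le_comap]
      intro a ha
      have ha' : algebraMap A B a ∈ Ideal.span {g} := h ▸ Ideal.mem_map_of_mem _ ha
      obtain ⟨u, hu⟩ := Ideal.mem_span_singleton'.1 ha'
      rw [Ideal.mem_comap, ← hu]
      apply Ideal.mul_mem_mul _ (Ideal.mem_span_singleton_self g)
      by_contra hu'
      rw [IsLocalRing.mem_maximalIdeal, mem_nonunits_iff, not_not] at hu'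
      apply hcon a ha
      rw [← hu]
      exact Ideal.span_singleton_mul_left_unit hu' g
    rw [h] at h2
    obtain ⟨w, hw, hw2⟩ := Ideal.mem_mul_span_singleton.1 (h2 (Ideal.mem_span_singleton_self g))
    have h3 : (w - 1) * g = 0 := by rw [sub_mul, hw2]; ring
    rw [mul_right_mem_nonZeroDivisors_eq_zero_iff hg, sub_eq_zero] at h3
    rw [h3] at hw
    exact (IsLocalRing.mem_maximalIdeal (1 : B)).1 hw isUnit_one
  obtain ⟨a, ha, hag⟩ := h1
  refine ⟨a, ?_, ?_⟩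
  · rw [mem_nonZeroDivisors_iff_right]
    intro b hb
    apply hinj
    rw [map_zero]
    have h2 : algebraMap A B b * g = 0 := by
      have : g ∈ Ideal.span {algebraMap A B a} := hag ▸ Ideal.mem_span_singleton_self g
      obtain ⟨c, hc⟩ := Ideal.mem_span_singleton'.1 this
      rw [← hc, mul_left_comm, ← map_mul, hb, map_zero, mul_zero]
    exact (mul_right_mem_nonZeroDivisors_eq_zero_iff hg).1 h2
  · rw [← Ideal.comap_map_eq_self_of_faithfullyFlat (B := B) I, h, ← hag,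
      ← Set.image_singleton, ← Ideal.map_span, Ideal.comap_map_eq_self_of_faithfullyFlat]

theorem isEffCartierIdeal_of_comap [Flat f] [Surjective f] [IsLocallyNoetherian Y] (𝓘 : Y.IdealSheafData)
    (h : BlowUp.IsEffCartierIdeal (𝓘.comap f)) : BlowUp.IsEffCartierIdeal 𝓘 := by
  rw [isEffCartierIdeal_iff_stalkIdeal]
  intro y
  obtain ⟨x, rfl⟩ := f.surjective y
  obtain ⟨g, hg, hgx⟩ := exists_stalkIdeal_eq_span h x
  rw [stalkIdeal_comap] at hgx
  algebraize [(f.stalkMap x).hom]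
  have hfl : Module.Flat (Y.presheaf.stalk (f x)) (X.presheaf.stalk x) := Flat.stalkMap f x
  have hloc : IsLocalHom (algebraMap (Y.presheaf.stalk (f x)) (X.presheaf.stalk x)) :=
    inferInstanceAs (IsLocalHom (f.stalkMap x).hom)
  have : Module.FaithfullyFlat (Y.presheaf.stalk (f x)) (X.presheaf.stalk x) :=
    Module.FaithfullyFlat.of_flat_of_isLocalHom
  exact exists_generator_of_map _ g hg hgx

/-- Faithfully flat descent of effective Cartier ideals from the points of depth at most one. -/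
theorem exists_descent [Flat f] [Surjective f] [IsLocallyNoetherian Y]
    (hf : QuasiCompact f ∨ IsOpenMap f) (𝓙 : X.IdealSheafData) (hJ : BlowUp.IsEffCartierIdeal 𝓙)
    (hdesc : ∀ y : Y, DepthLeOne (Y.presheaf.stalk y) → DescAt f 𝓙 y) :
    ∃ 𝓘 : Y.IdealSheafData, BlowUp.IsEffCartierIdeal 𝓘 ∧ 𝓘.comap f = 𝓙 := by
  obtain ⟨𝓘, h𝓘⟩ := exists_comap_eq f 𝓙 fun V => exists_ideal f hf hJ V fun y _ => hdesc y
  exact ⟨𝓘, isEffCartierIdeal_of_comap f 𝓘 (h𝓘 ▸ hJ), h𝓘⟩

end Groth.Agent.Ega4late.H533.DescScheme
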