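import Groth.Agent.Ega4late.H533.DescAlg
import Groth.Agent.Ega4B.NormalAssoc
import Mathlib.RingTheory.DiscreteValuationRing.TFAE
import Mathlib.RingTheory.KrullDimension.PID

/-!
# Normal local rings of depth at most one, and powers of a prime element
-/

set_option autoImplicit false

universe u

namespace Groth.Agent.Ega4late.H533.NormalAlg

open IsLocalRing Groth.Agent.Ega4late.H533.DescAlg

/-- A normal Noetherian local domain of depth at most one which is not a field has principal maximal ideal. -/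
theorem exists_generator_of_depthLeOne {R : Type*} [CommRing R] [IsLocalRing R] [IsDomain R]
    [IsNoetherianRing R] [IsIntegrallyClosed R] (h : DepthLeOne R) (hR : ¬ IsField R) :
    ∃ π : R, π ≠ 0 ∧ maximalIdeal R = Ideal.span {π} := by
  obtain ⟨t, htm, ht0⟩ : ∃ t ∈ maximalIdeal R, t ≠ 0 := by
    have : maximalIdeal R ≠ ⊥ := fun hc => hR (IsLocalRing.isField_iff_maximalIdeal_eq.2 hc)
    exact Submodule.exists_mem_ne_zero_of_ne_bot this
  -- the maximal ideal is associated to `R / t`
  have hass : maximalIdeal R ∈ associatedPrimes R (R ⧸ Ideal.span {t}) := by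
    by_cases hsub : ((maximalIdeal R : Ideal R) : Set R) ⊆ ⋃ q ∈ associatedPrimes R (R ⧸ Ideal.span {t}), (q : Set R)
    · have hfin : (associatedPrimes R (R ⧸ Ideal.span {t})).Finite := associatedPrimes.finite R _
      have : ∃ q ∈ hfin.toFinset, maximalIdeal R ≤ id q := by
        rw [← Ideal.subset_union_prime (R := R) (s := hfin.toFinset) (f := id) ⊥ ⊥]
        · intro x hx
          have := hsub hx
          simpa using this
        · intro q hq _ _
          exact ((hfin.mem_toFinset).1 hq).isPrime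
      obtain ⟨q, hq, hKq⟩ := this
      rw [hfin.mem_toFinset] at hq
      have : maximalIdeal R = q :=
        (IsLocalRing.maximalIdeal.isMaximal R).eq_of_le hq.isPrime.ne_top hKq
      rwa [this]
    · exfalso
      obtain ⟨y, hym, hy⟩ := Set.not_subset.1 hsub
      rw [biUnion_associatedPrimes_eq_zero_divisors R (R ⧸ Ideal.span {t})] at hy
      obtain ⟨z, hz1, hz2⟩ := h t htm y hym (mem_nonZeroDivisors_of_ne_zero ht0)
      apply hy
      refine ⟨Ideal.Quotient.mk _ z, ?_, ?_⟩
      · rwa [Ne, Ideal.Quotient.eq_zero_iff_mem]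
      · have : y • Ideal.Quotient.mk (Ideal.span {t}) z = Ideal.Quotient.mk _ (y * z) := rfl
        rw [this, Ideal.Quotient.eq_zero_iff_mem]
        exact hz1
  rw [Ega4B.Zariski.mem_associatedPrimes_quotient_iff] at hass
  obtain ⟨-, b, hb⟩ := hass
  refine Ega4B.NormalAssoc.maximalIdeal_eq_span_of_colon t b ht0 htm ?_ ?_
  · intro hc
    have : (1 : R) ∈ maximalIdeal R := (hb 1).2 (by rwa [one_mul])
    exact (IsLocalRing.mem_maximalIdeal (1 : R)).1 this isUnit_one
  · intro m hm
    obtain ⟨k, hk⟩ := Ideal.mem_span_singleton'.1 ((hb m).1 hm)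
    exact ⟨k, by rw [hk, mul_comm]⟩

theorem isDiscreteValuationRing_of_generator {R : Type*} [CommRing R] [IsLocalRing R] [IsDomain R]
    [IsNoetherianRing R] (π : R) (hπ0 : π ≠ 0) (hπ : maximalIdeal R = Ideal.span {π}) :
    IsDiscreteValuationRing R := by
  have hR : ¬ IsField R := by
    intro hc
    rw [IsLocalRing.isField_iff_maximalIdeal_eq.1 hc] at hπ
    exact hπ0 (by simpa using hπ.symm)
  have := ((IsDiscreteValuationRing.TFAE R hR).out 0 4).2
  exact this ⟨⟨π, hπ⟩⟩

/-- A divisor of a power of a prime nonzerodivisor `π` is `π ^ k` up to a unit. -/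
theorem span_eq_span_pow {B : Type*} [CommRing B] (π : B) (hπ0 : π ∈ nonZeroDivisors B) (hπ : Prime π)
    (n : ℕ) : ∀ g : B, g ∣ π ^ n → ∃ k, Ideal.span {g} = Ideal.span {π ^ k} := by
  induction n with
  | zero =>
    intro g hg
    rw [pow_zero] at hg
    refine ⟨0, ?_⟩
    rw [pow_zero, Ideal.span_singleton_one, Ideal.span_singleton_eq_top]
    exact isUnit_of_dvd_one hg
  | succ n ih =>
    intro g hg
    obtain ⟨h, hh⟩ := hg
    have h1 : π ∣ g * h := hh ▸ dvd_pow_self π (Nat.succ_ne_zero n)
    rcases hπ.dvd_or_dvd h1 with ⟨g', rfl⟩ | ⟨h', rfl⟩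
    · have h2 : g' ∣ π ^ n := by
        refine ⟨h, ?_⟩
        have : (π ^ n - g' * h) * π = 0 := by
          rw [pow_succ] at hh
          linear_combination hh
        exact sub_eq_zero.1 ((mul_right_mem_nonZeroDivisors_eq_zero_iff hπ0).1 this)
      obtain ⟨k, hk⟩ := ih g' h2
      refine ⟨k + 1, ?_⟩
      rw [← Ideal.span_singleton_mul_span_singleton, hk, Ideal.span_singleton_mul_span_singleton, pow_succ']
    · apply ih
      refine ⟨h', ?_⟩
      have : (π ^ n - g * h') * π = 0 := by
        rw [pow_succ] at hh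
        linear_combination hh
      exact sub_eq_zero.1 ((mul_right_mem_nonZeroDivisors_eq_zero_iff hπ0).1 this)

/-- Powers of a nonunit nonzerodivisor generate distinct ideals. -/
theorem pow_injective_of_span_eq {B : Type*} [CommRing B] (π : B) (hπ0 : π ∈ nonZeroDivisors B)
    (hπ : ¬ IsUnit π) {m n : ℕ} (h : Ideal.span {π ^ m} = Ideal.span {π ^ n}) : m = n := by
  have key : ∀ m n : ℕ, Ideal.span {π ^ m} ≤ Ideal.span {π ^ n} → n ≤ m := by
    intro m n hle
    by_contra hlt
    push Not at hlt
    obtain ⟨c, hc⟩ := Ideal.mem_span_singleton'.1 (hle (Ideal.mem_span_singleton_self _))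
    obtain ⟨d, rfl⟩ := Nat.exists_eq_add_of_lt hlt
    have h2 : (c * π ^ (d + 1) - 1) * π ^ m = 0 := by
      have e1 : π ^ (m + d + 1) = π ^ (d + 1) * π ^ m := by rw [← pow_add]; ring_nf
      rw [e1] at hc
      linear_combination hc
    rw [mul_right_mem_nonZeroDivisors_eq_zero_iff (pow_mem hπ0 m), sub_eq_zero] at h2
    apply hπ
    rw [pow_succ, ← mul_assoc, mul_comm] at h2
    exact IsUnit.of_mul_eq_one _ h2
  exact le_antisymm (key n m h.ge) (key m n h.le)

end Groth.Agent.Ega4late.H533.NormalAlg
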