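import Groth.Agent.Ega4late.H533.DescScheme
import Groth.Agent.Ega4late.H533.NormalAlg
import Groth.Agent.Flat2D.FiberStalk
import Groth.Prelude.Def_Pi1

/-!
# Effective Cartier ideals trivial on the maximal fibres, over a normal base with integral fibres in codimension one
-/

set_option autoImplicit false

universe u

open CategoryTheory CategoryTheory.Limits AlgebraicGeometry TopologicalSpace

namespace Groth.Agent.Ega4late.H533.NormalDesc

open Groth.Agent.Divis.CartierBasic Groth.Agent.Ega4late.H533.DescAlg Groth.Agent.Ega4late.H533.DescScheme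
  Groth.Agent.Ega4late.H533.NormalAlg

variable {X Y : Scheme.{u}} (f : X ⟶ Y)

/-- Stalk ideals and generization. -/
theorem stalkIdeal_specializes (𝓙 : X.IdealSheafData) {x x' : X} (h : x' ⤳ x) :
    (stalkIdeal 𝓙 x).map (X.presheaf.stalkSpecializes h).hom = stalkIdeal 𝓙 x' := by
  obtain ⟨U, hx⟩ := exists_affine (X := X) x
  rw [stalkIdeal_eq _ U hx, stalkIdeal_eq _ U (h.mem_open U.1.isOpen hx), Ideal.map_map,
    ← CommRingCat.hom_comp, TopCat.Presheaf.germ_stalkSpecializes]

/-- The inverse image on the fibre over `y` is trivial iff the stalk ideals over `y` are. -/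
theorem comap_fiberι_eq_top_iff (𝓙 : X.IdealSheafData) (y : Y) :
    𝓙.comap (f.fiberι y) = ⊤ ↔ ∀ x : X, f x = y → stalkIdeal 𝓙 x = ⊤ := by
  constructor
  · intro h x hx
    have hx' : x ∈ Set.range (f.fiberι y) := by
      rw [f.range_fiberι]; exact hx
    obtain ⟨z, rfl⟩ := hx'
    have h1 := stalkIdeal_comap (f.fiberι y) 𝓙 z
    rw [h, stalkIdeal_top] at h1
    by_contra hcon
    have h2 : stalkIdeal 𝓙 (f.fiberι y z) ≤ IsLocalRing.maximalIdeal _ := IsLocalRing.le_maximalIdeal hcon
    have h3 := Ideal.map_mono (f := ((f.fiberι y).stalkMap z).hom) h2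
    rw [← h1] at h3
    have h4 : IsLocalRing.maximalIdeal ((f.fiber y).presheaf.stalk z) = ⊤ :=
      top_le_iff.1 (h3.trans (IsLocalRing.map_maximalIdeal_le _))
    exact (inferInstance : (IsLocalRing.maximalIdeal ((f.fiber y).presheaf.stalk z)).IsPrime).ne_top h4
  · intro h
    apply ext_stalkIdeal
    intro z
    rw [stalkIdeal_comap, stalkIdeal_top, h _ (Flat2D.FiberStalk.apply_fiberι f y z), Ideal.map_top]

/-- `y` is a maximal point as soon as its local ring is a field. -/
theorem eq_of_specializes_of_isField {y : Y} (h : IsField (Y.presheaf.stalk y)) (z : Y) (hz : z ⤳ y) : z = y := by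
  have hz' : z ∈ Set.range (Y.fromSpecStalk y) := by
    rw [Scheme.range_fromSpecStalk]; exact hz
  obtain ⟨q, rfl⟩ := hz'
  have hq : q = IsLocalRing.closedPoint (Y.presheaf.stalk y) := by
    apply PrimeSpectrum.ext
    have h1 : q.asIdeal ≤ IsLocalRing.maximalIdeal _ := IsLocalRing.le_maximalIdeal q.isPrime.ne_top
    rw [IsLocalRing.isField_iff_maximalIdeal_eq.1 h] at h1
    change q.asIdeal = IsLocalRing.maximalIdeal _
    rw [IsLocalRing.isField_iff_maximalIdeal_eq.1 h]
    exact le_bot_iff.1 h1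
  rw [hq, Scheme.fromSpecStalk_closedPoint]

/-- A maximal point whose local ring is a domain has a field as local ring. -/
theorem isField_of_maximal {y : Y} [IsDomain (Y.presheaf.stalk y)] (h : ∀ z : Y, z ⤳ y → z = y) :
    IsField (Y.presheaf.stalk y) := by
  have h1 : Y.fromSpecStalk y ⟨⊥, Ideal.isPrime_bot⟩ ⤳ y := by
    have : Y.fromSpecStalk y ⟨⊥, Ideal.isPrime_bot⟩ ∈ Set.range (Y.fromSpecStalk y) := ⟨_, rfl⟩
    rwa [Scheme.range_fromSpecStalk] at this
  have h2 := h _ h1
  have h3 : (⟨⊥, Ideal.isPrime_bot⟩ : PrimeSpectrum (Y.presheaf.stalk y)) =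
      IsLocalRing.closedPoint (Y.presheaf.stalk y) := by
    apply (Y.fromSpecStalk y).isEmbedding.injective
    rw [Scheme.fromSpecStalk_closedPoint]
    exact h2
  rw [IsLocalRing.isField_iff_maximalIdeal_eq]
  exact (congrArg PrimeSpectrum.asIdeal h3).symm

/-- Generizations of a point with a discrete valuation ring as local ring. -/
theorem maximal_of_ne {y : Y} [IsDomain (Y.presheaf.stalk y)] [IsDiscreteValuationRing (Y.presheaf.stalk y)]
    {z : Y} (hz : z ⤳ y) (hne : z ≠ y) : ∀ w : Y, w ⤳ z → w = z := by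
  have key : ∀ z : Y, z ⤳ y → z ≠ y → z = Y.fromSpecStalk y ⟨⊥, Ideal.isPrime_bot⟩ := by
    intro z hz hne
    have hz' : z ∈ Set.range (Y.fromSpecStalk y) := by
      rw [Scheme.range_fromSpecStalk]; exact hz
    obtain ⟨q, rfl⟩ := hz'
    congr 1
    apply PrimeSpectrum.ext
    by_contra hq
    apply hne
    have : q = IsLocalRing.closedPoint (Y.presheaf.stalk y) := by
      apply PrimeSpectrum.ext
      exact IsLocalRing.eq_maximalIdeal (q.isPrime.isMaximal hq)
    rw [this, Scheme.fromSpecStalk_closedPoint]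
  intro w hw
  by_cases hwy : w = y
  · subst hwy
    exact ((hw.antisymm hz).eq).trans rfl
  · rw [key w (hw.trans hz) hwy, key z hz hne]

/-- The ring map `O_{Y,y} → O_{X,x}` for `f x` a generization of `y`. -/
noncomputable def toStalk {y : Y} {x : X} (h : f x ⤳ y) : Y.presheaf.stalk y →+* X.presheaf.stalk x :=
  (Y.presheaf.stalkSpecializes h ≫ f.stalkMap x).hom

theorem toStalk_refl (x : X) : toStalk f (specializes_refl (f x)) = (f.stalkMap x).hom := by
  rw [toStalk, TopCat.Presheaf.stalkSpecializes_refl, Category.id_comp]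

theorem toStalk_comp {y : Y} {x x' : X} (h : f x ⤳ y) (h' : x' ⤳ x) (h'' : f x' ⤳ y) :
    (X.presheaf.stalkSpecializes h').hom.comp (toStalk f h) = toStalk f h'' := by
  rw [toStalk, toStalk, ← CommRingCat.hom_comp, Category.assoc, ← Scheme.Hom.stalkSpecializes_stalkMap,
    ← Category.assoc, TopCat.Presheaf.stalkSpecializes_comp]

/-- If `f x ≠ y`, the uniformizer becomes a unit at `x`. -/
theorem isUnit_toStalk {y : Y} {x : X} (h : f x ⤳ y) (hne : f x ≠ y) (π : Y.presheaf.stalk y)
    (hπ : IsLocalRing.maximalIdeal (Y.presheaf.stalk y) = Ideal.span {π}) : IsUnit (toStalk f h π) := by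
  rw [toStalk, CommRingCat.hom_comp, RingHom.comp_apply]
  apply IsUnit.map
  by_contra hcon
  apply hne
  have h1 : (IsLocalRing.maximalIdeal (Y.presheaf.stalk (f x))).comap (Y.presheaf.stalkSpecializes h).hom =
      IsLocalRing.maximalIdeal (Y.presheaf.stalk y) := by
    apply le_antisymm (IsLocalRing.le_maximalIdeal (Ideal.IsPrime.ne_top inferInstance))
    rw [hπ, Ideal.span_singleton_le_iff_mem, Ideal.mem_comap]
    exact hcon
  have h2 : Y.fromSpecStalk y (Spec.map (Y.presheaf.stalkSpecializes h) (IsLocalRing.closedPoint _)) = f x := by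
    rw [← Scheme.Hom.comp_apply, Scheme.SpecMap_stalkSpecializes_fromSpecStalk, Scheme.fromSpecStalk_closedPoint]
  have h3 : Spec.map (Y.presheaf.stalkSpecializes h) (IsLocalRing.closedPoint _) =
      IsLocalRing.closedPoint (Y.presheaf.stalk y) := PrimeSpectrum.ext h1
  rw [← h2, h3, Scheme.fromSpecStalk_closedPoint]

/-- Over a codimension one point with integral fibre, an effective Cartier ideal which is trivial over the maximal
points is generated by a power of the uniformizer. -/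
theorem exists_pow [Flat f] (𝓙 : X.IdealSheafData) (hJ : BlowUp.IsEffCartierIdeal 𝓙)
    (hmax : ∀ x : X, (∀ z : Y, z ⤳ f x → z = f x) → stalkIdeal 𝓙 x = ⊤) (x : X)
    [IsDomain (Y.presheaf.stalk (f x))] [IsDiscreteValuationRing (Y.presheaf.stalk (f x))]
    [IsIntegral (f.fiber (f x))] (π : Y.presheaf.stalk (f x)) (hπ0 : π ≠ 0)
    (hπ : IsLocalRing.maximalIdeal (Y.presheaf.stalk (f x)) = Ideal.span {π}) :
    ∃ k : ℕ, stalkIdeal 𝓙 x = Ideal.span {((f.stalkMap x).hom π) ^ k} := by
  obtain ⟨g, hg, hgx⟩ := exists_stalkIdeal_eq_span hJ x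
  set π' := (f.stalkMap x).hom π with hπ'
  have hπ'0 : π' ∈ nonZeroDivisors (X.presheaf.stalk x) :=
    Divis.EffCartier.map_mem_nonZeroDivisors_of_flat _ (Flat.stalkMap f x) (mem_nonZeroDivisors_of_ne_zero hπ0)
  have hfib : Flat2D.FiberStalk.fibreIdeal f x = Ideal.span {π'} := by
    rw [Flat2D.FiberStalk.fibreIdeal_def, hπ, Ideal.map_span, Set.image_singleton]
  have hprime : Prime π' := by
    obtain ⟨e⟩ := Flat2D.FiberStalk.nonempty_asFiber_stalkEquiv f x
    have hdom : IsDomain (X.presheaf.stalk x ⧸ Flat2D.FiberStalk.fibreIdeal f x) := e.isDomain_iff.2 inferInstance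
    rw [Ideal.Quotient.isDomain_iff_prime, hfib, Ideal.span_singleton_prime (nonZeroDivisors.ne_zero hπ'0)] at hdom
    exact hdom
  have hrad : π' ∈ (Ideal.span {g}).radical := by
    rw [Ideal.radical_eq_sInf, Submodule.mem_sInf]
    rintro q ⟨hgq, hq⟩
    by_contra hπq
    let x' := X.fromSpecStalk x ⟨q, hq⟩
    have hx' : x' ⤳ x := by
      have : X.fromSpecStalk x ⟨q, hq⟩ ∈ Set.range (X.fromSpecStalk x) := ⟨_, rfl⟩
      rwa [Scheme.range_fromSpecStalk] at this
    have hfx' : f x' = Y.fromSpecStalk (f x) (Spec.map (f.stalkMap x) ⟨q, hq⟩) := by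
      rw [← Scheme.Hom.comp_apply, ← Scheme.Hom.comp_apply, Scheme.SpecMap_stalkMap_fromSpecStalk]
    have hne : f x' ≠ f x := by
      intro hc
      have hc' : Y.fromSpecStalk (f x) (Spec.map (f.stalkMap x) ⟨q, hq⟩) =
          Y.fromSpecStalk (f x) (IsLocalRing.closedPoint _) :=
        (hfx'.symm.trans hc).trans (Scheme.fromSpecStalk_closedPoint (X := Y) (x := f x)).symm
      have h1 := (Y.fromSpecStalk (f x)).isEmbedding.injective hc'
      apply hπq
      have h2 : π ∈ (Spec.map (f.stalkMap x) ⟨q, hq⟩).asIdeal := by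
        rw [h1]
        change π ∈ IsLocalRing.maximalIdeal _
        rw [hπ]
        exact Ideal.mem_span_singleton_self π
      exact h2
    have h3 := hmax x' (maximal_of_ne (hx'.map f.continuous) hne)
    rw [← notMem_support_iff_stalkIdeal_eq_top] at h3
    apply h3
    rw [fromSpecStalk_mem_support_iff, hgx]
    exact hgq
  obtain ⟨N, hN⟩ := hrad
  rw [Ideal.mem_span_singleton] at hN
  obtain ⟨k, hk⟩ := span_eq_span_pow π' hπ'0 hprime N g hN
  exact ⟨k, by rw [hgx, hk]⟩

theorem exists_pow' [Flat f] (𝓙 : X.IdealSheafData) (hJ : BlowUp.IsEffCartierIdeal 𝓙)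
    (hmax : ∀ x : X, (∀ z : Y, z ⤳ f x → z = f x) → stalkIdeal 𝓙 x = ⊤) (y : Y)
    [IsDomain (Y.presheaf.stalk y)] [IsDiscreteValuationRing (Y.presheaf.stalk y)]
    [IsIntegral (f.fiber y)] (π : Y.presheaf.stalk y) (hπ0 : π ≠ 0)
    (hπ : IsLocalRing.maximalIdeal (Y.presheaf.stalk y) = Ideal.span {π}) (x : X) (hxy : f x = y)
    (h : f x ⤳ y) :
    (∃ k : ℕ, stalkIdeal 𝓙 x = Ideal.span {(toStalk f h π) ^ k}) ∧
      toStalk f h π ∈ nonZeroDivisors (X.presheaf.stalk x) ∧ ¬ IsUnit (toStalk f h π) := by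
  subst hxy
  rw [toStalk_refl]
  refine ⟨exists_pow f 𝓙 hJ hmax x π hπ0 hπ, Divis.EffCartier.map_mem_nonZeroDivisors_of_flat _
    (Flat.stalkMap f x) (mem_nonZeroDivisors_of_ne_zero hπ0), ?_⟩
  intro hu
  have h1 := isUnit_of_map_unit (f.stalkMap x).hom π hu
  have h2 : π ∈ IsLocalRing.maximalIdeal (Y.presheaf.stalk (f x)) := hπ ▸ Ideal.mem_span_singleton_self π
  exact (IsLocalRing.mem_maximalIdeal π).1 h2 h1

theorem descAt_of_dvr [Flat f] (𝓙 : X.IdealSheafData) (hJ : BlowUp.IsEffCartierIdeal 𝓙)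
    (hmax : ∀ x : X, (∀ z : Y, z ⤳ f x → z = f x) → stalkIdeal 𝓙 x = ⊤) (y : Y)
    [IsDomain (Y.presheaf.stalk y)] [IsDiscreteValuationRing (Y.presheaf.stalk y)]
    [IsIntegral (f.fiber y)] (π : Y.presheaf.stalk y) (hπ0 : π ≠ 0)
    (hπ : IsLocalRing.maximalIdeal (Y.presheaf.stalk y) = Ideal.span {π}) : DescAt f 𝓙 y := by
  let ξ : X := f.fiberι y (genericPoint (f.fiber y))
  have hξ : f ξ = y := Flat2D.FiberStalk.apply_fiberι f y _
  have hξy : f ξ ⤳ y := specializes_of_eq hξ
  obtain ⟨⟨n, hn⟩, hξ1, hξ2⟩ := exists_pow' f 𝓙 hJ hmax y π hπ0 hπ ξ hξ hξy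
  refine ⟨Ideal.span {π ^ n}, fun x h => ?_⟩
  change (Ideal.span {π ^ n}).map (toStalk f h) = _
  rw [Ideal.map_span, Set.image_singleton, map_pow]
  by_cases hxy : f x = y
  · obtain ⟨⟨k, hk⟩, -, -⟩ := exists_pow' f 𝓙 hJ hmax y π hπ0 hπ x hxy h
    have hx : x ∈ Set.range (f.fiberι y) := by
      rw [f.range_fiberι]; exact hxy
    obtain ⟨z, rfl⟩ := hx
    have hsp : ξ ⤳ f.fiberι y z := (genericPoint_specializes z).map (f.fiberι y).continuous
    have h1 := stalkIdeal_specializes 𝓙 hsp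
    rw [hk, Ideal.map_span, Set.image_singleton, map_pow, hn] at h1
    have h2 : (X.presheaf.stalkSpecializes hsp).hom (toStalk f h π) = toStalk f hξy π := by
      rw [← RingHom.comp_apply, toStalk_comp f h hsp hξy]
    rw [h2] at h1
    rw [hk, pow_injective_of_span_eq _ hξ1 hξ2 h1]
  · rw [hmax x (maximal_of_ne h hxy), Ideal.span_singleton_eq_top]
    exact (isUnit_toStalk f h hxy π hπ).pow n

/-- Effective Cartier ideals trivial over the maximal points come from the base, for a normal base and integral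
fibres over the points of codimension one. -/
theorem exists_of_normal [Flat f] [Surjective f] [IsLocallyNoetherian Y] (hf : QuasiCompact f ∨ IsOpenMap f)
    (hY : Pi1.IsNormalScheme Y)
    (hfib : ∀ y : Y, ringKrullDim (Y.presheaf.stalk y) = 1 → IsIntegral (f.fiber y))
    (𝓙 : X.IdealSheafData) (hJ : BlowUp.IsEffCartierIdeal 𝓙)
    (hmax : ∀ x : X, (∀ z : Y, z ⤳ f x → z = f x) → stalkIdeal 𝓙 x = ⊤) :
    ∃ 𝓘 : Y.IdealSheafData, BlowUp.IsEffCartierIdeal 𝓘 ∧ 𝓘.comap f = 𝓙 := by
  refine exists_descent f hf 𝓙 hJ fun y hdepth => ?_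
  have := (hY y).1
  have := (hY y).2
  by_cases hfield : IsField (Y.presheaf.stalk y)
  · refine ⟨⊤, fun x h => ?_⟩
    have hmaxy := eq_of_specializes_of_isField hfield
    rw [Ideal.map_top, hmax x]
    intro z hz
    rw [hmaxy z (hz.trans h), hmaxy _ h]
  · obtain ⟨π, hπ0, hπ⟩ := exists_generator_of_depthLeOne hdepth hfield
    have := isDiscreteValuationRing_of_generator π hπ0 hπ
    have := hfib y (IsDiscreteValuationRing.ringKrullDim_eq_one _)
    exact descAt_of_dvr f 𝓙 hJ hmax y π hπ0 hπ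

end Groth.Agent.Ega4late.H533.NormalDesc
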